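import Cfsg.Agent.OD.Pre
import Cfsg.Agent.H6.Mc3B
import Cfsg.Agent.H6.Mc3DA.D0
import Cfsg.Agent.H6.Mc3DA.D1
import Cfsg.Agent.H6.Mc3DA.D2
import Cfsg.Agent.H6.Mc3DA.D3
set_option autoImplicit false
set_option maxRecDepth 100000
set_option Elab.async false
set_option linter.all false
namespace CfH6.Mc3D
open CfH6 CfH6.D MulAction
theorem iD0 : Rng (chkInvT (fun x => fD (Nat.succ x)) Mc3B.il 15 67100) 0 33408 := rng_of 0 261 0 33408 (by decide +kernel)
theorem iD1 : Rng (chkInvT (fun x => fD (Nat.succ x)) Mc3B.il 15 67100) 33408 66816 := rng_of 33408 261 0 66816 (by decide +kernel)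
theorem iD2 : Rng (chkInvT (fun x => fD (Nat.succ x)) Mc3B.il 15 67100) 66816 67100 := rng_of 66816 2 28 67100 (by decide +kernel)
theorem rD0 : Rng (chkRelT (fun x => fD (Nat.succ x)) Mc3B.rels) 0 5760 := rng_of 0 45 0 5760 (by decide +kernel)
theorem rD1 : Rng (chkRelT (fun x => fD (Nat.succ x)) Mc3B.rels) 5760 11520 := rng_of 5760 45 0 11520 (by decide +kernel)
theorem rD2 : Rng (chkRelT (fun x => fD (Nat.succ x)) Mc3B.rels) 11520 17280 := rng_of 11520 45 0 17280 (by decide +kernel)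
theorem rD3 : Rng (chkRelT (fun x => fD (Nat.succ x)) Mc3B.rels) 17280 23040 := rng_of 17280 45 0 23040 (by decide +kernel)
theorem rD4 : Rng (chkRelT (fun x => fD (Nat.succ x)) Mc3B.rels) 23040 28800 := rng_of 23040 45 0 28800 (by decide +kernel)
theorem rD5 : Rng (chkRelT (fun x => fD (Nat.succ x)) Mc3B.rels) 28800 34560 := rng_of 28800 45 0 34560 (by decide +kernel)
end CfH6.Mc3D
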