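import Cfsg.Agent.OD.Pre
import Cfsg.Agent.H6.Mc3B
import Cfsg.Agent.H6.Mc3DA.D0
import Cfsg.Agent.H6.Mc3DA.D1
import Cfsg.Agent.H6.Mc3DA.D2
import Cfsg.Agent.H6.Mc3DA.D3
set_option autoImplicit false
set_option maxRecDepth 100000
set_option Elab.async false
set_option linter.all false
namespace CfH6.Mc3D
open CfH6 CfH6.D MulAction
theorem rD6 : Rng (chkRelT (fun x => fD (Nat.succ x)) Mc3B.rels) 34560 40320 := rng_of 34560 45 0 40320 (by decide +kernel)
theorem rD7 : Rng (chkRelT (fun x => fD (Nat.succ x)) Mc3B.rels) 40320 46080 := rng_of 40320 45 0 46080 (by decide +kernel)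
theorem rD8 : Rng (chkRelT (fun x => fD (Nat.succ x)) Mc3B.rels) 46080 51840 := rng_of 46080 45 0 51840 (by decide +kernel)
theorem rD9 : Rng (chkRelT (fun x => fD (Nat.succ x)) Mc3B.rels) 51840 57600 := rng_of 51840 45 0 57600 (by decide +kernel)
theorem rD10 : Rng (chkRelT (fun x => fD (Nat.succ x)) Mc3B.rels) 57600 63360 := rng_of 57600 45 0 63360 (by decide +kernel)
theorem rD11 : Rng (chkRelT (fun x => fD (Nat.succ x)) Mc3B.rels) 63360 67100 := rng_of 63360 29 28 67100 (by decide +kernel)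
theorem dD0 : Rng (chkId fD) 0 67100 := rng_of 0 524 28 67100 (by decide +kernel)
theorem sD0 : Rng (chkSl fD sa sb 524 28) 16 24 := rng_of 16 0 8 24 (by decide +kernel)
theorem sD1 : Rng (chkSl fD sa sb 524 28) 24 32 := rng_of 24 0 8 32 (by decide +kernel)
theorem sD2 : Rng (chkSl fD sa sb 524 28) 32 40 := rng_of 32 0 8 40 (by decide +kernel)
end CfH6.Mc3D
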