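import Cfsg.Agent.OD.Pre
import Cfsg.Agent.H6.Mc3B
import Cfsg.Agent.H6.Mc3DA.D0
import Cfsg.Agent.H6.Mc3DA.D1
import Cfsg.Agent.H6.Mc3DA.D2
import Cfsg.Agent.H6.Mc3DA.D3
set_option autoImplicit false
set_option maxRecDepth 100000
set_option Elab.async false
set_option linter.all false
namespace CfH6.Mc3D
open CfH6 CfH6.D MulAction
theorem sD3 : Rng (chkSl fD sa sb 524 28) 40 48 := rng_of 40 0 8 48 (by decide +kernel)
theorem sD4 : Rng (chkSl fD sa sb 524 28) 48 56 := rng_of 48 0 8 56 (by decide +kernel)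
theorem sD5 : Rng (chkSl fD sa sb 524 28) 56 64 := rng_of 56 0 8 64 (by decide +kernel)
end CfH6.Mc3D
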